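import Cfsg.Agent.H133.Ore.Orb

/-!
# Degree bounds over arbitrary fields from the orbits on the characters of an elementary abelian subgroup (helper807)

The complex version is `H133/Ore/Orb.lean` (helper133); the same certificate (matrices and tree) is used here over a field
containing a primitive `p`-th root of unity.

* `le_finrank_field` : a nontrivial representation of a simple group has degree at least the size of the smallest orbit.
-/

set_option autoImplicit false
set_option linter.unusedSectionVars false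

namespace Cfsg.Agent.H807.EPX.Deg

open Module Cfsg.Agent.H133.Ore.Orb

variable {p n : ℕ} [hp : Fact p.Prime] {K : Type*} [Field K] {ζ : K}

/-- the basic character -/
noncomputable def psi (hζ : IsPrimitiveRoot ζ p) : AddChar (ZMod p) K := AddChar.zmodChar p hζ.pow_eq_one

theorem psi_one (hζ : IsPrimitiveRoot ζ p) {c : ZMod p} (h : psi hζ c = 1) : c = 0 := by
  unfold psi at h
  rw [AddChar.zmodChar_apply] at h
  have h1 := (hζ.pow_eq_one_iff_dvd _).1 h
  have h2 : c.val = 0 := Nat.eq_zero_of_dvd_of_lt h1 (ZMod.val_lt c)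
  exact (ZMod.val_eq_zero c).1 h2

/-- the character of a vector -/
noncomputable def lamK (hζ : IsPrimitiveRoot ζ p) (w : Fin n → ZMod p) : AddChar (Fin n → ZMod p) K where
  toFun a := psi hζ (∑ i, w i * a i)
  map_zero_eq_one' := by simp
  map_add_eq_mul' a b := by
    rw [← AddChar.map_add_eq_mul, ← Finset.sum_add_distrib]
    congr 1
    exact Finset.sum_congr rfl fun i _ => by rw [Pi.add_apply, mul_add]

variable (hζ : IsPrimitiveRoot ζ p)

theorem lamK_apply (w a : Fin n → ZMod p) : lamK hζ w a = psi hζ (∑ i, w i * a i) := rfl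

theorem lamK_comm (w a : Fin n → ZMod p) : lamK hζ w a = lamK hζ a w := by
  rw [lamK_apply, lamK_apply]
  congr 1
  exact Finset.sum_congr rfl fun i _ => mul_comm _ _

theorem lamK_single (w : Fin n → ZMod p) (i : Fin n) : lamK hζ w (Pi.single i 1) = psi hζ (w i) := by
  rw [lamK_apply]
  congr 1
  rw [Finset.sum_eq_single i (fun j _ hj => by rw [Pi.single_eq_of_ne hj, mul_zero]) (fun h => absurd (Finset.mem_univ i) h),
    Pi.single_eq_same, mul_one]

theorem lamK_ne_one {w : Fin n → ZMod p} (hw : w ≠ 0) : lamK hζ w ≠ 1 := by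
  intro h
  apply hw
  funext i
  apply psi_one hζ
  rw [← lamK_single, h]
  rfl

theorem sum_lamK {w : Fin n → ZMod p} (hw : w ≠ 0) : ∑ a, lamK hζ w a = 0 :=
  AddChar.sum_eq_zero_of_ne_one (lamK_ne_one hζ hw)

theorem lamK_zero (a : Fin n → ZMod p) : lamK hζ (0 : Fin n → ZMod p) a = 1 := by
  rw [lamK_apply]
  simp

theorem lamK_sub (w w' a : Fin n → ZMod p) : lamK hζ w (-a) * lamK hζ w' a = lamK hζ (w' - w) a := by
  rw [lamK_apply, lamK_apply, lamK_apply, ← AddChar.map_add_eq_mul, ← Finset.sum_add_distrib]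
  congr 1
  exact Finset.sum_congr rfl fun i _ => by
    rw [Pi.neg_apply, Pi.sub_apply]
    ring

theorem card_ne_zero (hζ : IsPrimitiveRoot ζ p) : (Fintype.card (Fin n → ZMod p) : K) ≠ 0 := by
  have : NeZero p := ⟨hp.out.ne_zero⟩
  have h1 : NeZero (p : K) := hζ.neZero'
  rw [Fintype.card_fun, ZMod.card, Nat.cast_pow]
  exact pow_ne_zero _ h1.out

variable {G : Type*} [Group G] {x : (Fin n → ZMod p) → G} {W : Type*} [AddCommGroup W] [Module K W]

/-- the weight space -/
noncomputable def wtK (x : (Fin n → ZMod p) → G) (ρ : Representation K G W) (w : Fin n → ZMod p) : Submodule K W where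
  carrier := {v | ∀ a, ρ (x a) v = lamK hζ w a • v}
  add_mem' := by
    intro v w hv hw a
    rw [map_add, hv a, hw a, smul_add]
  zero_mem' := by
    intro a
    rw [map_zero, smul_zero]
  smul_mem' := by
    intro c v hv a
    rw [map_smul, hv a, smul_comm]

theorem mem_wtK {ρ : Representation K G W} {w : Fin n → ZMod p} {v : W} :
    v ∈ wtK hζ x ρ w ↔ ∀ a, ρ (x a) v = lamK hζ w a • v := Iff.rfl

/-- the projection -/
noncomputable def prK (x : (Fin n → ZMod p) → G) (ρ : Representation K G W) (w : Fin n → ZMod p) : Module.End K W :=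
  (Fintype.card (Fin n → ZMod p) : K)⁻¹ • ∑ a, lamK hζ w (-a) • ρ (x a)

theorem prK_apply (ρ : Representation K G W) (w : Fin n → ZMod p) (v : W) :
    prK hζ x ρ w v = (Fintype.card (Fin n → ZMod p) : K)⁻¹ • ∑ a, lamK hζ w (-a) • ρ (x a) v := by
  simp [prK]

theorem prK_of_mem (ρ : Representation K G W) {w w' : Fin n → ZMod p} {v : W} (hv : v ∈ wtK hζ x ρ w') :
    prK hζ x ρ w v = if w' = w then v else 0 := by
  classical
  rw [prK_apply]
  have h1 : ∀ a, lamK hζ w (-a) • ρ (x a) v = lamK hζ (w' - w) a • v := by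
    intro a
    rw [(mem_wtK hζ).1 hv a, smul_smul, lamK_sub]
  simp only [h1]
  rw [← Finset.sum_smul]
  split_ifs with h
  · rw [h, sub_self]
    simp only [lamK_zero]
    rw [Finset.sum_const, Finset.card_univ, nsmul_eq_mul, mul_one, smul_smul, inv_mul_cancel₀ (card_ne_zero hζ), one_smul]
  · rw [sum_lamK hζ (sub_ne_zero.2 h), zero_smul, smul_zero]

theorem prK_mem (hx : ∀ a b, x (a + b) = x a * x b) (ρ : Representation K G W) (w : Fin n → ZMod p) (v : W) :
    prK hζ x ρ w v ∈ wtK hζ x ρ w := by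
  rw [mem_wtK]
  intro b
  rw [prK_apply, map_smul, map_sum, smul_comm]
  congr 1
  rw [Finset.smul_sum]
  refine Fintype.sum_equiv (Equiv.addLeft b) _ _ fun a => ?_
  rw [map_smul, ← Module.End.mul_apply, ← map_mul, ← hx, smul_smul]
  congr 1
  show lamK hζ w (-a) = lamK hζ w b * lamK hζ w (-(b + a))
  rw [← AddChar.map_add_eq_mul]
  congr 1
  abel

theorem sum_prK (hx : ∀ a b, x (a + b) = x a * x b) (ρ : Representation K G W) (v : W) :
    ∑ w, prK hζ x ρ w v = v := by
  classical
  simp only [prK_apply]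
  rw [← Finset.smul_sum, Finset.sum_comm]
  simp only [← Finset.sum_smul]
  rw [Finset.sum_eq_single (0 : Fin n → ZMod p)]
  · have h1 : ∑ w : Fin n → ZMod p, lamK hζ w (-0) = (Fintype.card (Fin n → ZMod p) : K) := by
      rw [neg_zero]
      simp only [AddChar.map_zero_eq_one]
      rw [Finset.sum_const, Finset.card_univ, nsmul_eq_mul, mul_one]
    rw [h1, smul_smul, inv_mul_cancel₀ (card_ne_zero hζ), one_smul, x_zero hx, map_one, Module.End.one_apply]
  · intro a _ ha
    have h1 : ∑ w : Fin n → ZMod p, lamK hζ w (-a) = 0 := by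
      simp only [lamK_comm hζ _ (-a)]
      exact sum_lamK hζ (neg_ne_zero.2 ha)
    rw [h1, zero_smul]
  · intro h
    exact absurd (Finset.mem_univ _) h

theorem exists_wtK (hx : ∀ a b, x (a + b) = x a * x b) (ρ : Representation K G W) {a : Fin n → ZMod p}
    (ha : ρ (x a) ≠ 1) : ∃ w, w ≠ 0 ∧ wtK hζ x ρ w ≠ ⊥ := by
  classical
  by_contra hcon
  push Not at hcon
  apply ha
  ext v
  have h1 := sum_prK hζ hx ρ v
  rw [Finset.sum_eq_single (0 : Fin n → ZMod p)] at h1
  · have h2 := prK_mem hζ hx ρ 0 v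
    rw [h1, mem_wtK] at h2
    rw [h2 a, lamK_zero, one_smul, Module.End.one_apply]
  · intro w _ hw
    have h2 := prK_mem hζ hx ρ w v
    rw [hcon w hw, Submodule.mem_bot] at h2
    exact h2
  · intro h
    exact absurd (Finset.mem_univ _) h

/-- the number of weights -/
theorem card_leK [FiniteDimensional K W] (ρ : Representation K G W) (s : Finset (Fin n → ZMod p))
    (hs : ∀ w ∈ s, wtK hζ x ρ w ≠ ⊥) : s.card ≤ finrank K W := by
  classical
  have h1 : ∀ w : s, ∃ v : W, v ∈ wtK hζ x ρ w ∧ v ≠ 0 := by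
    intro w
    obtain ⟨v, hv, hv0⟩ := (Submodule.ne_bot_iff _).1 (hs w.1 w.2)
    exact ⟨v, hv, hv0⟩
  choose v hv hv0 using h1
  have h2 : LinearIndependent K v := by
    rw [Fintype.linearIndependent_iff]
    intro g hg i
    have h3 := congrArg (prK hζ x ρ i.1) hg
    rw [map_sum, map_zero, Finset.sum_eq_single i] at h3
    · rw [map_smul, prK_of_mem hζ ρ (hv i), if_pos rfl] at h3
      exact (smul_eq_zero.1 h3).resolve_right (hv0 i)
    · intro j _ hj
      rw [map_smul, prK_of_mem hζ ρ (hv j), if_neg (fun h => hj (Subtype.ext h)), smul_zero]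
    · intro h
      exact absurd (Finset.mem_univ _) h
  have h3 := h2.fintype_card_le_finrank
  rwa [Fintype.card_coe] at h3

theorem ext_basisK {χ : AddChar (Fin n → ZMod p) K} {w : Fin n → ZMod p}
    (h : ∀ i, χ (Pi.single i 1) = lamK hζ w (Pi.single i 1)) (a : Fin n → ZMod p) : χ a = lamK hζ w a := by
  have ha : a ∈ AddSubgroup.closure (Set.range fun i : Fin n => (Pi.single i 1 : Fin n → ZMod p)) := by
    rw [closure_single]; trivial
  induction ha using AddSubgroup.closure_induction with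
  | mem a ha =>
    obtain ⟨i, rfl⟩ := ha
    exact h i
  | zero => rw [AddChar.map_zero_eq_one, AddChar.map_zero_eq_one]
  | add a b _ _ iha ihb => rw [AddChar.map_add_eq_mul, AddChar.map_add_eq_mul, iha, ihb]
  | neg a _ iha => rw [AddChar.map_neg_eq_inv, AddChar.map_neg_eq_inv, iha]

theorem transport (ρ : Representation K G W) {g : G} {f : (Fin n → ZMod p) → (Fin n → ZMod p)}
    (hg : ∀ a, g * x a = x (f a) * g) (hf : Function.Surjective f) {w w' : Fin n → ZMod p}
    (hw : ∀ a, lamK hζ w' (f a) = lamK hζ w a) (h : wtK hζ x ρ w ≠ ⊥) : wtK hζ x ρ w' ≠ ⊥ := by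
  obtain ⟨v, hv, hv0⟩ := (Submodule.ne_bot_iff _).1 h
  rw [Submodule.ne_bot_iff]
  refine ⟨ρ g v, ?_, ?_⟩
  · rw [mem_wtK]
    intro b
    obtain ⟨a, rfl⟩ := hf b
    rw [← Module.End.mul_apply, ← map_mul, ← hg, map_mul, Module.End.mul_apply, (mem_wtK hζ).1 hv a, map_smul, hw]
  · intro h0
    apply hv0
    have h1 : ρ g⁻¹ (ρ g v) = v := by
      rw [← Module.End.mul_apply, ← map_mul, inv_mul_cancel, map_one, Module.End.one_apply]
    rw [← h1, h0, map_zero]

theorem step_iff (hx : ∀ a b, x (a + b) = x a * x b) (hi : Function.Injective x) (ρ : Representation K G W) {g : G}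
    {M : List (List ℕ)} (h : Nrm x g (mat p n M)) {c c' : ℕ} (hc : stepOK p n M c c' = true) :
    wtK hζ x ρ (dig p n c') ≠ ⊥ ↔ wtK hζ x ρ (dig p n c) ≠ ⊥ := by
  obtain ⟨f, hf, hg, hadd, hs⟩ := h.exists_map hx hi
  let χ : AddChar (Fin n → ZMod p) K :=
    { toFun := fun a => lamK hζ (dig p n c) (f a)
      map_zero_eq_one' := by
        have h0 : f 0 = 0 := by
          have := hadd 0 0
          rw [add_zero] at this
          exact (left_eq_add.1 this)
        rw [h0, AddChar.map_zero_eq_one]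
      map_add_eq_mul' := fun a b => by rw [hadd, AddChar.map_add_eq_mul] }
  have h1 : ∀ a, lamK hζ (dig p n c) (f a) = lamK hζ (dig p n c') a := by
    refine ext_basisK (χ := χ) hζ fun i => ?_
    show lamK hζ (dig p n c) (f (Pi.single i 1)) = _
    rw [hs, lamK_single, lamK_apply]
    congr 1
    have h2 := List.all_eq_true.1 hc i (List.mem_range.2 i.2)
    have h3 := Nat.eq_of_beq_eq_true h2
    show ∑ k, dig p n c k * mat p n M i k = dig p n c' i
    simp only [dig, mat]
    rw [← h3, ZMod.natCast_mod, Nat.cast_list_sum, List.map_map, sum_list]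
    refine Finset.sum_congr rfl fun k _ => ?_
    simp only [Function.comp_apply, Nat.cast_mul]
  constructor
  · exact transport hζ ρ hg hf.2 h1
  · obtain ⟨f', hl, hr⟩ := Function.bijective_iff_has_inverse.mp hf
    refine transport hζ ρ (g := g⁻¹) (f := f') ?_ hl.surjective ?_
    · intro a
      have h2 := hg (f' a)
      rw [hr a] at h2
      rw [inv_mul_eq_iff_eq_mul, ← mul_assoc, h2, mul_assoc, mul_inv_cancel, mul_one]
    · intro a
      rw [← h1, hr a]

/-- the weights are constant on the orbits -/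
theorem constK (hx : ∀ a b, x (a + b) = x a * x b) (hi : Function.Injective x) (ρ : Representation K G W)
    {Ms : List (List (List ℕ))} (hM : ∀ j < Ms.length, ∃ g : G, Nrm x g (mat p n (Ms.getD j []))) {T : List Ent}
    (hT : treeOK p n Ms T = true) : ∀ {c : ℕ}, c < p ^ n →
      (wtK hζ x ρ (dig p n c) ≠ ⊥ ↔ wtK hζ x ρ (dig p n (rt T c)) ≠ ⊥) := by
  have key : ∀ (d : ℕ) {c : ℕ}, c < p ^ n → (T.getD c (0, 0, 0, 0)).2.2.1 < d →
      (wtK hζ x ρ (dig p n c) ≠ ⊥ ↔ wtK hζ x ρ (dig p n (rt T c)) ≠ ⊥) := by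
    intro d
    induction d with
    | zero => intro c _ h; exact absurd h (Nat.not_lt_zero _)
    | succ d ih =>
      intro c hc hd
      have h1 := List.all_eq_true.1 hT c (List.mem_range.2 hc)
      rcases hc1 : T.getD c (0, 0, 0, 0) with ⟨par, gen, dep, root⟩
      rcases hc2 : T.getD par (0, 0, 0, 0) with ⟨par', gen', dep', root'⟩
      rw [hc1] at h1 hd
      simp only [hc2, Bool.or_eq_true, Bool.and_eq_true, Nat.blt_eq] at h1
      have hr : rt T c = root := by rw [rt, hc1]
      rcases h1 with h1 | ⟨h1, h2, h3, h4, h5⟩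
      · rw [hr, Nat.eq_of_beq_eq_true h1]
      · obtain ⟨g, hg⟩ := hM gen h4
        rw [step_iff hζ hx hi ρ hg h5, ih h3 (by rw [hc2]; exact lt_of_lt_of_le h1 (Nat.lt_succ_iff.1 hd)), hr]
        have h6 : rt T par = root' := by rw [rt, hc2]
        rw [h6, Nat.eq_of_beq_eq_true h2]
  intro c hc
  exact key _ hc (Nat.lt_succ_self _)

/-- **The degree bound**, over any field with a primitive `p`-th root of unity, for a representation which is not trivial
on the elementary abelian subgroup. -/
theorem le_finrank_of_ne [FiniteDimensional K W] (hζ : IsPrimitiveRoot ζ p) (hx : ∀ a b, x (a + b) = x a * x b)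
    (hi : Function.Injective x) (ρ : Representation K G W) {a₀ : Fin n → ZMod p} (ha₀ : ρ (x a₀) ≠ 1)
    {Ms : List (List (List ℕ))} (hM : ∀ j < Ms.length, ∃ g : G, Nrm x g (mat p n (Ms.getD j []))) {T : List Ent}
    (hT : treeOK p n Ms T = true) {B : ℕ} {rs : List ℕ} (hB : rootsOK p n B T rs = true) : B ≤ finrank K W := by
  classical
  obtain ⟨w, hw0, hw⟩ := exists_wtK hζ hx ρ ha₀
  obtain ⟨c, hc, rfl⟩ := dig_surj w
  have hc0 : c ≠ 0 := by
    rintro rfl
    apply hw0
    funext i
    simp [dig, dg]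
  rw [rootsOK, Bool.and_eq_true] at hB
  have h3 := List.all_eq_true.1 hB.1 c (List.mem_range.2 hc)
  rw [Bool.or_eq_true, List.any_eq_true] at h3
  rcases h3 with h3 | ⟨r, hr, h3⟩
  · exact absurd (Nat.eq_of_beq_eq_true h3) hc0
  have h4 := Nat.le_of_ble_eq_true (List.all_eq_true.1 hB.2 r hr)
  have h5 := Nat.eq_of_beq_eq_true h3
  refine h4.trans ?_
  have hnd : ((List.range (p ^ n)).filter fun c => Nat.beq (rt T c) r).Nodup := List.nodup_range.filter _
  have h6 := card_leK hζ (x := x) ρ
    (((List.range (p ^ n)).filter fun c => Nat.beq (rt T c) r).toFinset.image (dig p n)) (by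
      intro w' hw'
      obtain ⟨c', hc', rfl⟩ := Finset.mem_image.1 hw'
      have h7 := List.mem_filter.1 (List.mem_toFinset.1 hc')
      rw [constK hζ hx hi ρ hM hT (List.mem_range.1 h7.1), Nat.eq_of_beq_eq_true h7.2, ← h5,
        ← constK hζ hx hi ρ hM hT hc]
      exact hw)
  rw [Finset.card_image_of_injOn, List.toFinset_card_of_nodup hnd] at h6
  · exact h6
  · intro c1 hc1 c2 hc2 h
    exact dig_inj (List.mem_range.1 (List.mem_filter.1 (List.mem_toFinset.1 hc1)).1)
      (List.mem_range.1 (List.mem_filter.1 (List.mem_toFinset.1 hc2)).1) h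

/-- a nontrivial representation of a simple group is faithful -/
theorem faithful' [IsSimpleGroup G] (ρ : Representation K G W) (hρ : ∃ g, ρ g ≠ 1) {g : G} (hg : g ≠ 1) : ρ g ≠ 1 := by
  intro h
  obtain ⟨g', hg'⟩ := hρ
  let f : G →* (Module.End K W)ˣ := MonoidHom.toHomUnits ρ
  have hf : ∀ x, f x = 1 ↔ ρ x = 1 := fun x => by
    rw [Units.ext_iff]; rfl
  rcases (inferInstance : f.ker.Normal).eq_bot_or_eq_top with hb | ht
  · apply hg
    have : g ∈ f.ker := (hf g).mpr h
    rwa [hb, Subgroup.mem_bot] at this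
  · apply hg'
    have : g' ∈ f.ker := by rw [ht]; trivial
    exact (hf g').mp this

/-- **The degree bound for simple groups over any field with a primitive `p`-th root of unity.** -/
theorem le_finrank_field [IsSimpleGroup G] [FiniteDimensional K W] (hζ : IsPrimitiveRoot ζ p)
    (hx : ∀ a b, x (a + b) = x a * x b) (hi : Function.Injective x) (ρ : Representation K G W) (hρ : ∃ g, ρ g ≠ 1)
    (hn : 0 < n) {Ms : List (List (List ℕ))} (hM : ∀ j < Ms.length, ∃ g : G, Nrm x g (mat p n (Ms.getD j [])))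
    {T : List Ent} (hT : treeOK p n Ms T = true) {B : ℕ} {rs : List ℕ} (hB : rootsOK p n B T rs = true) :
    B ≤ finrank K W := by
  have h1 : x (Pi.single ⟨0, hn⟩ 1) ≠ 1 := by
    rw [← x_zero hx]
    intro h
    have h2 := congrFun (hi h) ⟨0, hn⟩
    rw [Pi.single_eq_same] at h2
    exact one_ne_zero h2
  exact le_finrank_of_ne hζ hx hi ρ (faithful' ρ hρ h1) hM hT hB

end Cfsg.Agent.H807.EPX.Deg
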